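import Cfsg.Agent.P8.Stm
import Cfsg.Agent.Class.NegOne
import Cfsg.Agent.Class.SLCenter
import Cfsg.Agent.Class.PSLSimple
import Cfsg.Agent.Class.A5Recog
import Cfsg.Agent.S0495

/-!
# Small facts on `L₃(2)`, `L₃(4)`, `A₇`, `SL₂(4)`
-/

set_option autoImplicit false

namespace Cfsg.Lib.P8

open Subgroup
open scoped MatrixGroups

universe u v

namespace E73H

theorem simple_of {G : Type*} [Group G] [IsSimpleGroup (G ⧸ center G)] (h : Nat.card (center G) = 1) :
    IsSimpleGroup G :=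
  ((QuotientGroup.quotientMulEquivOfEq (eq_bot_of_card_eq _ h)).trans
    QuotientGroup.quotientBot).symm.isSimpleGroup

theorem simple32 : IsSimpleGroup L32 :=
  have := Class.PSL_isSimpleGroup (F := ZMod 2) (ι := Fin 3) (by simp)
  simple_of (by rw [Class.card_center_SL (by simp)]; simp)

theorem card32 : Nat.card L32 = 168 := Class.card_SL_fin_three (ZMod.card 2)

/-- an element of order seven -/
def s7 : L32 := ⟨!![0, 0, 1; 1, 0, 1; 0, 1, 0], by decide +kernel⟩

/-- an element of order three -/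
def x3 : L32 := ⟨!![1, 0, 0; 0, 0, 1; 0, 1, 1], by decide +kernel⟩

theorem ex32 : ∃ σ x : L32, orderOf σ = 7 ∧ orderOf x = 3 ∧ x * σ * x⁻¹ = σ ^ 2 := by
  have : Fact (Nat.Prime 7) := ⟨by norm_num⟩
  have : Fact (Nat.Prime 3) := ⟨by norm_num⟩
  exact ⟨s7, x3, orderOf_eq_prime (by decide +kernel) (by decide +kernel),
    orderOf_eq_prime (by decide +kernel) (by decide +kernel),
    mul_inv_eq_of_eq_mul (by decide +kernel)⟩

variable {F : Type} [Field F] [Fintype F]

theorem card34 (hF : Fintype.card F = 4) : Nat.card PSL(3, F) = 20160 := by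
  have h1 := card_eq_card_quotient_mul_card_subgroup (center SL(3, F))
  rw [Class.card_SL_fin_three hF, Class.card_center_SL (by simp), Nat.card_eq_fintype_card (α := F),
    Fintype.card_fin, hF] at h1
  norm_num at h1
  change _ = Nat.card PSL(3, F) * 3 at h1
  omega

theorem charP (hF : Fintype.card F = 4) : CharP F 2 := by
  have h : ((4 : ℕ) : F) = 0 := hF ▸ FiniteField.cast_card_eq_zero F
  exact CharTwo.of_one_ne_zero_of_two_eq_zero one_ne_zero
    (mul_self_eq_zero.1 (by rw [← h]; norm_num))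

theorem no8 (hF : Fintype.card F = 4) (g : PSL(3, F)) : orderOf g ≠ 8 := fun h => by
  have := charP hF
  have : Fact (Nat.Prime 2) := ⟨Nat.prime_two⟩
  obtain ⟨A, rfl⟩ := QuotientGroup.mk_surjective g
  have h8 : (A : PSL(3, F)) ^ 8 = 1 := h ▸ pow_orderOf_eq_one _
  have hc : A ^ 8 ∈ center SL(3, F) := (QuotientGroup.eq_one_iff _).1 h8
  have h3 : (A ^ 8) ^ 3 = 1 := by
    have := pow_card_eq_one' (x := (⟨_, hc⟩ : center SL(3, F)))
    rw [Class.card_center_SL (by simp), Nat.card_eq_fintype_card (α := F), Fintype.card_fin, hF] at this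
    exact congrArg Subtype.val this
  have h9 : (A ^ 9) ^ 2 ^ 3 = 1 := by
    rw [← pow_mul, show 9 * 2 ^ 3 = 8 * 3 * 3 from rfl, pow_mul, pow_mul, h3, one_pow]
  have e : ∀ n, (((A ^ 9 : SL(3, F)) : Matrix (Fin 3) (Fin 3) F) - 1) ^ 2 ^ n =
      ((A ^ 9) ^ 2 ^ n : SL(3, F)) - 1 := fun n => by
    rw [sub_pow_char_pow_of_commute _ _ (Commute.one_right _), one_pow, Matrix.SpecialLinearGroup.coe_pow
      (A ^ 9)]
  have nil : IsNilpotent (((A ^ 9 : SL(3, F)) : Matrix (Fin 3) (Fin 3) F) - 1) :=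
    ⟨2 ^ 3, by rw [e, h9]; simp⟩
  have k := Matrix.aeval_self_charpoly (((A ^ 9 : SL(3, F)) : Matrix (Fin 3) (Fin 3) F) - 1)
  rw [sub_eq_zero.1 (Matrix.isNilpotent_charpoly_sub_pow_of_isNilpotent nil).eq_zero, map_pow,
    Polynomial.aeval_X, Fintype.card_fin] at k
  have h4 : (A ^ 9) ^ 2 ^ 2 = 1 := Subtype.ext (sub_eq_zero.1 ((e 2).symm.trans (by
    rw [show 2 ^ 2 = 3 + 1 from rfl, pow_succ, k, zero_mul])))
  have h5 : (A : PSL(3, F)) ^ 4 = 1 := by
    have := congrArg (QuotientGroup.mk' (center SL(3, F))) h4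
    rwa [map_pow, map_pow, map_one, QuotientGroup.mk'_apply, show 9 = 8 + 1 from rfl, pow_succ _ 8, h8,
      one_mul] at this
  exact absurd (h ▸ orderOf_dvd_of_pow_eq_one h5) (by decide)

theorem emb (hF : Fintype.card F = 4) : ∃ f : L32 →* PSL(3, F), Function.Injective f := by
  have := charP hF
  have := simple32
  let f : L32 →* PSL(3, F) := (QuotientGroup.mk' _).comp
    (Matrix.SpecialLinearGroup.map (ZMod.castHom (dvd_refl 2) F))
  refine ⟨f, f.ker_eq_bot_iff.1 ((IsSimpleGroup.eq_bot_or_eq_top_of_normal _ inferInstance).resolve_right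
    fun h => ?_)⟩
  obtain ⟨r, -, e⟩ := Matrix.SpecialLinearGroup.mem_center_iff.1 ((QuotientGroup.eq_one_iff _).1
    (h.ge (mem_top s7)))
  have k : Matrix.scalar (Fin 3) r 0 2 = ZMod.castHom (dvd_refl 2) F 1 := congrFun (congrFun e 0) 2
  simp at k

theorem tr {X Y : Type*} [Group X] [Group Y] (f : X →* Y) (hf : Function.Injective f)
    (h : ∃ σ x : X, orderOf σ = 7 ∧ orderOf x = 3 ∧ x * σ * x⁻¹ = σ ^ 2) :
    ∃ σ x : Y, orderOf σ = 7 ∧ orderOf x = 3 ∧ x * σ * x⁻¹ = σ ^ 2 := by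
  obtain ⟨σ, x, h1, h2, h3⟩ := h
  exact ⟨f σ, f x, (orderOf_injective f hf σ).trans h1, (orderOf_injective f hf x).trans h2, by
    rw [← map_pow, ← h3, map_mul, map_mul, map_inv]⟩

theorem no8' (g : A7) : orderOf g ≠ 8 := fun h => by
  rw [← orderOf_coe, ← Equiv.Perm.lcm_cycleType] at h
  refine absurd (h ▸ Multiset.lcm_dvd.2 fun n hn => ?_ : 8 ∣ 4) (by decide)
  have h1 : n ∣ 8 := h ▸ Multiset.dvd_lcm hn
  have h2 := (Equiv.Perm.le_card_support_of_mem_cycleType hn).trans (Finset.card_le_univ _)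
  rw [Fintype.card_fin] at h2
  interval_cases n <;> simp_all

theorem ex7 : ∃ σ x : A7, orderOf σ = 7 ∧ orderOf x = 3 ∧ x * σ * x⁻¹ = σ ^ 2 := by
  have : Fact (Nat.Prime 7) := ⟨by norm_num⟩
  have : Fact (Nat.Prime 3) := ⟨by norm_num⟩
  exact ⟨⟨⟨![1, 2, 3, 4, 5, 6, 0], ![6, 0, 1, 2, 3, 4, 5], by decide, by decide⟩,
      Equiv.Perm.mem_alternatingGroup.2 (by decide +kernel)⟩,
    ⟨⟨![0, 2, 4, 6, 1, 3, 5], ![0, 4, 1, 5, 2, 6, 3], by decide, by decide⟩,
      Equiv.Perm.mem_alternatingGroup.2 (by decide +kernel)⟩,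
    orderOf_eq_prime (by decide +kernel) (by decide +kernel),
    orderOf_eq_prime (by decide +kernel) (by decide +kernel), by decide +kernel⟩

theorem sl24 : Nonempty (A5 ≃* SL(2, GaloisField 2 2)) := by
  have : Fact (Nat.Prime 2) := ⟨Nat.prime_two⟩
  have := Fintype.ofFinite (GaloisField 2 2)
  have h4 : Nat.card (GaloisField 2 2) = 4 := GaloisField.card 2 2 (by norm_num)
  have : IsSimpleGroup PSL(2, GaloisField 2 2) :=
    Matrix.ProjectiveSpecialLinearGroup.rank_two_simple h4.ge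
  have : IsSimpleGroup SL(2, GaloisField 2 2) :=
    simple_of (by rw [Class.card_center_SL (by simp), h4]; simp)
  obtain ⟨e⟩ := Class.nonempty_mulEquiv_A5_of_isSimpleGroup (G := SL(2, GaloisField 2 2))
    (Class.card_SL_fin_two (Nat.card_eq_fintype_card.symm.trans h4))
  exact ⟨e.symm⟩

end E73H

open E73H in
theorem pf_E73 : E73.{u} where
  l34 := by
    rintro X _ ⟨F, _, _, hF, ⟨e⟩⟩
    obtain ⟨f, hf⟩ := emb hF
    exact ⟨(Nat.card_congr e.toEquiv).trans (card34 hF), fun g h => no8 hF (e g) ((e.orderOf_eq g).trans h),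
      tr e.symm.toMonoidHom e.symm.injective (tr f hf ex32)⟩
  a7 := ⟨no8', ex7⟩
  l32 := ⟨simple32, card32, ex32⟩
  iso := fun h => by
    have : Fact (Nat.Prime 7) := ⟨by norm_num⟩
    have := simple32
    obtain ⟨e⟩ := Agent.S0495.result h (ZMod.card 7)
    obtain ⟨e'⟩ := Agent.S0495.result card32 (ZMod.card 7)
    exact ⟨e.trans e'.symm⟩
  sl24 := sl24

end Cfsg.Lib.P8
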