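import Cfsg.Agent.P8.Stm
import Cfsg.Agent.S2119
import Cfsg.Agent.Solv.MinNormal

/-!
# Groups with element orders at most 8: the almost simple groups of order divisible by 35
-/

set_option autoImplicit false

namespace Cfsg.Lib.P8

open Subgroup Cfsg.Lib.Trans Cfsg.Lib.Gold Cfsg.Agent
open scoped commutatorElement

universe u

namespace Fin1H

variable {X : Type u} [Group X] [Finite X]

theorem idx [Bas1.{u}] (hP : Le8 X) (L : Subgroup X) [L.Normal] {p : ℕ} (hp : p = 5 ∨ p = 7)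
    (h1 : p ∣ Nat.card L) (h2 : ¬ p ^ 2 ∣ Nat.card L) : ∃ k, L.index ∣ p ^ k * (p - 1) := by
  have hpp : p.Prime := by rcases hp with rfl | rfl <;> norm_num
  have := Fact.mk hpp
  obtain ⟨P⟩ : Nonempty (Sylow p L) := inferInstance
  have cP : Nat.card P = p := by
    have k1 := (hpp.dvd_iff_one_le_factorization Nat.card_pos.ne').1 h1
    have k2 := (hpp.pow_dvd_iff_le_factorization (k := 2) (Nat.card_pos (α := L)).ne').not.1 h2
    rw [P.card_eq_multiplicity, show (Nat.card L).factorization p = 1 by omega, pow_one]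
  have fr := P.normalizer_sup_eq_top
  obtain ⟨Z, hZ⟩ : ∃ Z, Z = (P : Subgroup L).map L.subtype := ⟨_, rfl⟩
  have cZ : Nat.card Z = p := by rw [hZ, card_map_of_injective L.subtype_injective, cP]
  rw [← hZ] at fr
  have : IsCyclic Z := isCyclic_of_prime_card cZ
  obtain ⟨σ, hσ⟩ := exists_prime_orderOf_dvd_card' (G := Z) p cZ.symm.dvd
  rw [← Subgroup.orderOf_coe] at hσ
  have hC : IsPGroup p (Cs Z) := fun c => ⟨1, Subtype.ext (by
    simpa [hσ] using Bas1.fpf hP (σ := (σ : X)) (hσ ▸ hp) c (c.2 σ σ.2).symm)⟩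
  obtain ⟨k, hk⟩ := IsPGroup.iff_card.1 hC
  have d1 : (Cs Z).relIndex (Ns Z) ∣ p - 1 := by
    rw [relIndex, ← normalizerMonoidHom_ker, index_ker, ← Nat.totient_prime hpp, ← cZ,
      ← IsCyclic.card_mulAut]
    exact card_subgroup_dvd_card _
  refine ⟨k, Dvd.dvd.trans ?_ (mul_dvd_mul_left _ d1)⟩
  rw [← hk, mul_comm, Solv.relIndex_mul_card_of_le (centralizer_le_normalizer _),
    ← relIndex_top_right, ← fr, relIndex_sup_right]
  exact index_dvd_card _

omit [Finite X] in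
theorem cA (n : ℕ) {L : Subgroup X} (e : Nonempty (L ≃* alternatingGroup (Fin (n + 2)))) :
    Nat.card L = (n + 2).factorial / 2 := by
  obtain ⟨e⟩ := e
  rw [Nat.card_congr e.toEquiv, nat_card_alternatingGroup, Nat.card_eq_fintype_card, Fintype.card_fin]

theorem alm [Bas1.{u}] [E73.{u}] (hP : Le8 X) (h5 : 5 ∣ Nat.card X) (h7 : 7 ∣ Nat.card X)
    (L : Subgroup X) [L.Normal] (h : Lst L) (_ : Cs L = ⊥) :
    (Nonempty (L ≃* A7) ∨ IsL34 L) ∧ L.index ≤ 2 := by
  rw [← card_mul_index L] at h5 h7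
  have k5 : 5 ∣ Nat.card L → ¬ 5 ^ 2 ∣ Nat.card L → L.index.Coprime 7 ∧ (L.index.Coprime 5 → L.index ∣ 4) :=
    fun a b => by
      obtain ⟨k, hk⟩ := idx hP L (.inl rfl) a b
      exact ⟨Nat.Coprime.coprime_dvd_left hk (Nat.Coprime.mul_left (Nat.Coprime.pow_left _ (by norm_num))
        (by norm_num)), fun c => (c.pow_right k).dvd_of_dvd_mul_left hk⟩
  have k7 : 7 ∣ Nat.card L → ¬ 7 ^ 2 ∣ Nat.card L → L.index.Coprime 5 ∧ (L.index.Coprime 7 → L.index ∣ 6) :=
    fun a b => by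
      obtain ⟨k, hk⟩ := idx hP L (.inr rfl) a b
      exact ⟨Nat.Coprime.coprime_dvd_left hk (Nat.Coprime.mul_left (Nat.Coprime.pow_left _ (by norm_num))
        (by norm_num)), fun c => (c.pow_right k).dvd_of_dvd_mul_left hk⟩
  have fin : Nat.card L = 2520 ∨ Nat.card L = 20160 → L.index ≤ 2 := fun e => by
    obtain ⟨a1, a2⟩ := k5 (by rcases e with e | e <;> rw [e] <;> norm_num)
      (by rcases e with e | e <;> rw [e] <;> norm_num)
    obtain ⟨b1, b2⟩ := k7 (by rcases e with e | e <;> rw [e] <;> norm_num)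
      (by rcases e with e | e <;> rw [e] <;> norm_num)
    exact Nat.le_of_dvd (by norm_num) (Nat.dvd_gcd (a2 b1) (b2 a1))
  have no7 : Nat.card L = 60 ∨ Nat.card L = 360 → False := fun e => by
    have a1 := (k5 (by rcases e with e | e <;> rw [e] <;> norm_num)
      (by rcases e with e | e <;> rw [e] <;> norm_num)).1
    have := a1.symm.dvd_of_dvd_mul_right h7
    rcases e with e | e <;> rw [e] at this <;> norm_num at this
  rcases h with h | h | ⟨⟨e⟩⟩ | h | h
  · exact (no7 (.inl (cA 3 h))).elim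
  · exact (no7 (.inr (cA 4 h))).elim
  · have c : Nat.card L = 168 := (Nat.card_congr e.toEquiv).trans E73.l32.{u}.2.1
    have := (k7 (by rw [c]; norm_num) (by rw [c]; norm_num)).1.symm.dvd_of_dvd_mul_right h5
    rw [c] at this
    norm_num at this
  · exact ⟨.inl h, fin (.inl (cA 5 h))⟩
  · exact ⟨.inr h, fin (.inr (E73.l34 h).1)⟩

theorem ten : ∀ k : Fin 8, (Equiv.swap 0 1 * c[2, 3, 4, 5, 6] : Equiv.Perm (Fin 7)) ^ (k.val + 1) ≠ 1 := by
  decide

theorem a7 (hP : Le8 X) (L : Subgroup X) [L.Normal] (h : Nonempty (L ≃* A7)) (hc : Cs L = ⊥) :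
    L = ⊤ := by
  have c : Nat.card L = 2520 := cA 5 h
  obtain ⟨e⟩ := h
  let k : MulAut L ≃* Equiv.Perm (Fin 7) := (MulAut.congr e).trans (MulEquiv.ofBijective _
    (S2119.result 7 (by norm_num) (by norm_num))).symm
  let f : X →* Equiv.Perm (Fin 7) := k.toMonoidHom.comp MulAut.conjNormal
  have fi : Function.Injective f := (injective_iff_map_eq_one f).2 fun g hg => by
    have h1 : (MulAut.conjNormal g : MulAut L) = 1 := k.injective (hg.trans (map_one k).symm)
    refine mem_bot.1 (hc.le (show g ∈ Cs L from fun x hx => ?_))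
    have h2 : g * x * g⁻¹ = x := congrArg Subtype.val (DFunLike.congr_fun h1 (⟨x, hx⟩ : L))
    exact (mul_inv_eq_iff_eq_mul.1 h2).symm
  have d := card_dvd_of_injective f fi
  have c7 : Nat.card (Equiv.Perm (Fin 7)) = 2520 * 2 := by
    rw [Nat.card_eq_fintype_card, Fintype.card_perm, Fintype.card_fin]; rfl
  rw [c7, ← card_mul_index L, c, Nat.mul_dvd_mul_iff_left (by norm_num)] at d
  rcases (Nat.dvd_prime Nat.prime_two).1 d with i | i
  · exact index_eq_one.1 i
  obtain ⟨g, hg⟩ := ((Nat.bijective_iff_injective_and_card f).2 ⟨fi, by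
    rw [c7, ← card_mul_index L, c, i]⟩).2 (Equiv.swap 0 1 * c[2, 3, 4, 5, 6])
  have o1 := hP g
  have o2 := orderOf_pos g
  refine absurd ?_ (ten ⟨orderOf g - 1, by omega⟩)
  rw [← hg, ← map_pow, Nat.sub_add_cancel o2, pow_orderOf_eq_one, map_one]

end Fin1H

theorem pf_Fin1 [Bas1.{u}] [E73.{u}] : Fin1.{u} := ⟨Fin1H.alm, Fin1H.a7⟩

end Cfsg.Lib.P8
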