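import Cfsg.Agent.P8.Stm
import Cfsg.Agent.S4002

/-!
# Groups with element orders exactly 1, …, 8: the final assembly
-/

set_option autoImplicit false

namespace Cfsg.Lib.P8

open Subgroup Cfsg.Lib.Trans Cfsg.Lib.Gold Cfsg.Agent

universe u

theorem final_of [Bas1.{u}] [Soc.{u}] [Main.{u}] [Fin1.{u}] [Fin2.{u}] [E73.{u}] {G : Type u} [Group G] [Finite G]
    (h : Set.range (orderOf : G → ℕ) = {k : ℕ | 1 ≤ k ∧ k ≤ 8}) :
    ∃ (N : Subgroup G) (F : Type) (_ : Field F) (_ : Fintype F), N.Normal ∧ N.index = 2 ∧ Fintype.card F = 4 ∧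
      Nonempty (↥N ≃* Matrix.ProjectiveSpecialLinearGroup (Fin 3) F) := by
  have hP : Le8 G := fun g => by
    have : orderOf g ∈ Set.range (orderOf : G → ℕ) := ⟨g, rfl⟩
    rw [h] at this
    exact this.2
  have hex : ∀ k, 1 ≤ k → k ≤ 8 → ∃ g : G, orderOf g = k := fun k h1 h2 => by
    have : k ∈ Set.range (orderOf : G → ℕ) := by rw [h]; exact ⟨h1, h2⟩
    exact this
  have hns : ¬ Group.IsSolvable G := S4002.result 8 (by norm_num) h
  obtain ⟨K, ⟨hKn, hKs⟩, hKm⟩ := Set.Finite.exists_maximal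
    (s := {K : Subgroup G | K.Normal ∧ Group.IsSolvable K}) (Set.toFinite _)
    ⟨⊥, inferInstance, inferInstance⟩
  obtain ⟨h5, h7⟩ := Fin2.p57 hP hns K hKs
  have hq := Bas1.quo hP K
  have hcard : Nat.card G = Nat.card (G ⧸ K) * Nat.card K := card_eq_card_quotient_mul_card_subgroup K
  have hdv : ∀ p, p.Prime → p ≤ 8 → ¬ p ∣ Nat.card K → p ∣ Nat.card (G ⧸ K) := by
    intro p hp hp8 hK
    obtain ⟨g, hg⟩ := hex p hp.one_le hp8
    have : p ∣ Nat.card G := hg ▸ orderOf_dvd_natCard g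
    rw [hcard] at this
    exact ((Nat.Prime.dvd_mul hp).1 this).resolve_right hK
  have g5 := hdv 5 (by norm_num) (by norm_num) h5
  have g7 := hdv 7 (by norm_num) (by norm_num) h7
  have hnt : Nontrivial (G ⧸ K) := by
    rw [← Finite.one_lt_card_iff_nontrivial]
    exact lt_of_lt_of_le (by norm_num) (Nat.le_of_dvd Nat.card_pos g5)
  have hab : ∀ A : Subgroup (G ⧸ K), A.Normal → IsMulCommutative A → A = ⊥ := by
    intro A hA hc
    have hn : (A.comap (QuotientGroup.mk' K)).Normal := hA.comap _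
    have hle : K ≤ A.comap (QuotientGroup.mk' K) := fun x hx => by
      rw [mem_comap, QuotientGroup.mk'_apply, (QuotientGroup.eq_one_iff x).2 hx]
      exact A.one_mem
    have hs : Group.IsSolvable ↥(A.comap (QuotientGroup.mk' K)) := by
      have hAs : Group.IsSolvable ↥A := Group.isSolvable_of_comm (fun a b => hc.is_comm.comm a b)
      refine Group.isSolvable_of_ker_le_range (inclusion hle) ((QuotientGroup.mk' K).subgroupComap A) ?_
      intro x hx
      rw [MonoidHom.mem_ker] at hx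
      have h1 : (QuotientGroup.mk' K) (x : G) = 1 := congrArg Subtype.val hx
      exact ⟨⟨x, (QuotientGroup.eq_one_iff _).1 h1⟩, rfl⟩
    have h2 := hKm ⟨hn, hs⟩ hle
    rw [eq_bot_iff]
    intro a ha
    obtain ⟨x, rfl⟩ := QuotientGroup.mk'_surjective K a
    exact (QuotientGroup.eq_one_iff x).2 (h2 ha)
  obtain ⟨L, hLn, hLs, hLc, hC⟩ := Soc.soc hq hnt hab
  have hL : Lst ↥L := Main.out hLc (Bas1.sub hq L)
  obtain ⟨hL', hi⟩ := Fin1.alm hq g5 g7 L hL hC
  have hK : K = ⊥ := Fin2.rad hP K hKs h5 h7 L hL'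
  subst hK
  let e : G ≃* G ⧸ (⊥ : Subgroup G) := QuotientGroup.quotientBot.symm
  obtain ⟨g, hg⟩ := hex 8 (by norm_num) le_rfl
  have hg' : orderOf (e g) = 8 := by rw [MulEquiv.orderOf_eq, hg]
  have hLt : L ≠ ⊤ := by
    intro ht
    have hm : e g ∈ L := ht ▸ mem_top _
    have h8 : orderOf (⟨e g, hm⟩ : ↥L) = 8 := by rw [← Subgroup.orderOf_coe]; exact hg'
    rcases hL' with ⟨⟨f⟩⟩ | hl
    · exact E73.a7.{u}.1 (f ⟨e g, hm⟩) (by rw [MulEquiv.orderOf_eq, h8])
    · exact (E73.l34 hl).2.1 _ h8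
  rcases hL' with ha | ⟨F, i1, i2, hF, ⟨f⟩⟩
  · exact absurd (Fin1.a7 hq L ha hC) hLt
  · refine ⟨L.comap e.toMonoidHom, F, i1, i2, hLn.comap _, ?_, hF, ⟨?_⟩⟩
    · rw [index_comap_of_surjective _ e.surjective]
      have h1 : L.index ≠ 1 := fun h => hLt (index_eq_one.1 h)
      have h0 : L.index ≠ 0 := index_ne_zero_of_finite
      omega
    · have : L.comap e.toMonoidHom = L.map e.symm.toMonoidHom := by
        ext x
        rw [mem_comap, mem_map]
        constructor
        · intro hx; exact ⟨e x, hx, by simp⟩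
        · rintro ⟨y, hy, rfl⟩; simpa using hy
      exact ((MulEquiv.subgroupCongr this).trans (e.symm.subgroupMap L).symm).trans f

end Cfsg.Lib.P8
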