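import Cfsg.Agent.P8.Stm

/-!
# Tools for Frattini arguments with Sylow subgroups of order 5 and 7
-/

set_option autoImplicit false

namespace Cfsg.Lib.P8

open Subgroup Cfsg.Lib.Trans Cfsg.Lib.Gold

universe u v

namespace M7H

variable {X : Type u} [Group X]

theorem e9_map {Y : Type*} [Group Y] {f : Y →* X} (hf : Function.Injective f) {a b : Y} :
    E9 (f a) (f b) ↔ E9 a b := by
  rw [E9, E9, orderOf_injective f hf, orderOf_injective f hf, ← map_mul, ← map_mul, hf.eq_iff,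
    ← MonoidHom.map_zpowers, mem_map_iff_mem hf]

theorem e9_ord {a b : X} (h : E9 a b) : orderOf (a * b) = 3 ∧ orderOf (a * b⁻¹) = 3 := by
  have : Fact (Nat.Prime 3) := ⟨Nat.prime_three⟩
  have a3 : a ^ 3 = 1 := h.1 ▸ pow_orderOf_eq_one a
  have b3 : b ^ 3 = 1 := h.2.1 ▸ pow_orderOf_eq_one b
  have c : Commute a b := h.2.2.1
  exact ⟨orderOf_eq_prime (by rw [c.mul_pow, a3, b3, one_mul]) fun e => h.2.2.2
      (eq_inv_of_mul_eq_one_right e ▸ inv_mem (mem_zpowers a)),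
    orderOf_eq_prime (by rw [c.inv_right.mul_pow, a3, inv_pow, b3, inv_one, one_mul]) fun e => h.2.2.2
      (mul_inv_eq_one.1 e ▸ mem_zpowers a)⟩

theorem e9_A6 : ∃ a b : A6, E9 a b := by
  have : Fact (Nat.Prime 3) := ⟨Nat.prime_three⟩
  let a : A6 := ⟨⟨![1, 2, 0, 3, 4, 5], ![2, 0, 1, 3, 4, 5], by decide, by decide⟩,
    Equiv.Perm.mem_alternatingGroup.2 (by decide +kernel)⟩
  let b : A6 := ⟨⟨![0, 1, 2, 4, 5, 3], ![0, 1, 2, 5, 3, 4], by decide, by decide⟩,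
    Equiv.Perm.mem_alternatingGroup.2 (by decide +kernel)⟩
  refine ⟨a, b, orderOf_eq_prime (by decide +kernel) (by decide +kernel),
    orderOf_eq_prime (by decide +kernel) (by decide +kernel), by decide +kernel, fun ⟨k, e⟩ => ?_⟩
  have h : ((a ^ k : A6) : Equiv.Perm (Fin 6)) 3 = 3 :=
    Equiv.Perm.zpow_apply_eq_self_of_apply_eq_self (by decide) k
  rw [show a ^ k = b from e] at h
  exact absurd h (by decide)

variable [Finite X] {σ : X} {p : ℕ}

theorem syl (hp : p.Prime) (ho : orderOf σ = p) (h2 : ¬ p * p ∣ Nat.card X) :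
    IsSylowIn p (zpowers σ) ⊤ :=
  ⟨le_top, IsPGroup.of_card (n := 1) (by rw [Nat.card_zpowers, ho, pow_one]), fun h => h2 (by
    rw [← (zpowers σ).card_mul_index, Nat.card_zpowers, ho]
    exact Nat.mul_dvd_mul_left p (by rwa [relIndex_top_right] at h))⟩

theorem cent [Bas1.{u}] (h8 : Le8 X) (h57 : p = 5 ∨ p = 7) (ho : orderOf σ = p)
    (h2 : ¬ p * p ∣ Nat.card X) {c : X} (h : c * σ * c⁻¹ = σ) : c ∈ zpowers σ := by
  have hp : p.Prime := by rcases h57 with rfl | rfl <;> norm_num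
  have := Fact.mk hp
  have s := syl hp ho h2
  have h1 := Bas1.fpf h8 (ho ▸ h57) c (eq_mul_of_mul_inv_eq h)
  refine (s.eq_of_le (s.isPGroup.to_sup_of_normal_left' (IsPGroup.of_card_dvd_pow (n := 1) (by
    rw [Nat.card_zpowers, pow_one, ← ho]; exact orderOf_dvd_of_pow_eq_one h1)) (zpowers_le.2
      (mem_normalizer_of_cj_le (by rw [cj_zpowers, h])))) le_sup_left le_top).le
    (mem_sup_right (mem_zpowers c))

theorem fratt (hp : p.Prime) (ho : orderOf σ = p) (h2 : ¬ p * p ∣ Nat.card X) {L : Subgroup X}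
    [L.Normal] (hσ : σ ∈ L) (g : X) :
    ∃ l ∈ L, ∃ n, g = l * n ∧ ∃ k, 0 < k ∧ k < p ∧ n * σ * n⁻¹ = σ ^ k := by
  have := Fact.mk hp
  obtain ⟨l, hl, n, hn, e⟩ := ((syl hp ho h2).mono (zpowers_le.2 hσ) le_top).frattini
    (g := g) ((normalizer_eq_top L).ge (mem_top g))
  obtain ⟨k, hk⟩ := (mem_powers_iff_mem_zpowers.2 (mem_normalizer_conj hn (mem_zpowers σ)))
  replace hk : σ ^ k = n * σ * n⁻¹ := hk
  refine ⟨l, hl, n, e, k % p, Nat.pos_of_ne_zero fun h => ?_, Nat.mod_lt _ hp.pos, ?_⟩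
  · have : n * σ * n⁻¹ = 1 := by rw [← hk, ← pow_mod_orderOf, ho, h, pow_zero]
    exact hp.one_lt.ne' (by rw [← ho, conj_eq_one_iff.1 this, orderOf_one])
  · rw [← ho, pow_mod_orderOf]; exact hk.symm

omit [Finite X] in
theorem act {a b : X} {i j : ℕ} (ha : a * σ * a⁻¹ = σ ^ i) (hb : b * σ * b⁻¹ = σ ^ j) :
    a * b * σ * (a * b)⁻¹ = σ ^ (i * j) := by
  rw [pow_mul, ← ha, conj_pow, ← hb]; group

omit [Finite X] in
theorem act_pow {a : X} {i : ℕ} (ha : a * σ * a⁻¹ = σ ^ i) (n : ℕ) :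
    a ^ n * σ * (a ^ n)⁻¹ = σ ^ i ^ n := by
  induction n with
  | zero => simp
  | succ n ih => rw [pow_succ, pow_succ, act ih ha]

theorem mem_of [Bas1.{u}] (h8 : Le8 X) (h57 : p = 5 ∨ p = 7) (ho : orderOf σ = p)
    (h2 : ¬ p * p ∣ Nat.card X) {L : Subgroup X} (hσ : σ ∈ L) {a n : X} (ha : a ∈ L)
    (h : n * σ * n⁻¹ = a * σ * a⁻¹) : n ∈ L :=
  (mul_mem_cancel_left (inv_mem ha)).1 (zpowers_le.2 hσ (cent h8 h57 ho h2 (by
    calc _ = a⁻¹ * (n * σ * n⁻¹) * a := by group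
      _ = σ := by rw [h]; group)))

end M7H

end Cfsg.Lib.P8
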