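import Cfsg.Agent.P8.Stm

/-!
# Groups with element orders at most 8: module toolkit A
-/

set_option autoImplicit false

namespace Cfsg.Lib.P8

open Subgroup

universe u v

namespace MdAH

variable {X : Type v} [Group X] {M : Type u} [AddCommGroup M] [DistribMulAction X M]

theorem nfix {g : X} {n : ℕ} (h : g ^ n = 1) (m : M) :
    g • ∑ i ∈ Finset.range n, g ^ i • m = ∑ i ∈ Finset.range n, g ^ i • m := by
  have := (Finset.sum_range_succ' (fun i => g ^ i • m) n).symm.trans (Finset.sum_range_succ _ n)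
  rw [h, pow_zero, add_left_inj] at this
  simpa only [Finset.smul_sum, smul_smul, ← pow_succ'] using this

theorem o3 {x : X} (h : orderOf x = 3) (m : M) : x • x • x • m = m := by
  rw [smul_smul, smul_smul, ← pow_three', ← h, pow_orderOf_eq_one, one_smul]

theorem efix {x : X} (h : ∀ m : M, x • x • x • m = m) (m : M) :
    x • (m + x • m + x • x • m) = m + x • m + x • x • m := by
  rw [smul_add, smul_add, h]; abel

theorem eq_of_add (h : Md X M) {a b : M} (e : a + b = 0) : a = b := by
  rw [← add_zero a, ← h.two b, ← add_assoc, e, zero_add]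

theorem free [Finite M] (h : Md X M) {t g : X} (t2 : t * t = 1) (tg : t * g * t⁻¹ = g⁻¹)
    (fp : ∀ m : M, (g * g) • m = m → m = 0) (m : M) (hm : t • m = m) : ∃ m' : M, m = m' + t • m' := by
  let φ : M →+ M := AddMonoidHom.id M + DistribSMul.toAddMonoidHom M t
  have e : ∀ m, φ m = m + t • m := fun _ => rfl
  have k : ∀ m, m ∈ φ.ker ↔ t • m = m := fun m =>
    ⟨fun l => (eq_of_add h l).symm, fun l => by rw [AddMonoidHom.mem_ker, e, l, h.two]⟩
  have le : φ.range ≤ φ.ker := by
    rintro _ ⟨a, rfl⟩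
    rw [k, e, smul_add, smul_smul, t2, one_smul, add_comm]
  have c1 : Nat.card φ.ker * Nat.card φ.range = Nat.card M := by
    rw [← AddSubgroup.index_ker, AddSubgroup.card_mul_index]
  have c2 : Nat.card φ.ker * Nat.card φ.ker ≤ Nat.card M := by
    rw [← Nat.card_prod]
    refine Nat.card_le_card_of_injective ((φ.ker.subtype.coprod
      ((DistribSMul.toAddMonoidHom M g).comp φ.ker.subtype))) ((injective_iff_map_eq_zero _).2 ?_)
    rintro ⟨⟨a, ha⟩, ⟨b, hb⟩⟩ l
    obtain rfl : a = g • b := eq_of_add h l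
    obtain rfl : b = 0 := fp b (by
      rw [k] at ha hb
      rw [← hb, smul_smul, smul_smul, mul_inv_eq_iff_eq_mul.1 tg, mul_assoc, t2, mul_one, hb,
        inv_smul_eq_iff, smul_smul] at ha
      exact ha.symm)
    simp
  obtain ⟨a, ha⟩ := (AddSubgroup.eq_of_le_of_card_ge le
    (Nat.le_of_mul_le_mul_left (c2.trans c1.ge) Nat.card_pos)).ge ((k m).2 hm)
  exact ⟨a, ha.symm⟩

end MdAH

open MdAH in
theorem pf_MdA : MdA.{u, v} where
  comp f hf h := @Md.mk _ _ _ _ (DistribMulAction.compHom _ f) h.two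
    (fun g hg m e => h.fp (f g) (by rwa [orderOf_injective f hf]) m e)
    (fun s x hx c hs m e => h.k (f s) (f x) (by rwa [orderOf_injective f hf]) (by rw [← map_mul, c, map_mul])
      (by rwa [orderOf_injective f hf]) m e)
    fun s hs m => by
      have := h.n8 (f s) (by rwa [orderOf_injective f hf]) m
      simp only [← map_pow] at this
      exact this
  sub L h := ⟨h.two, fun g hg m e => h.fp g (by rwa [orderOf_coe]) m e,
    fun s x hx c hs m e => h.k s x (by rwa [orderOf_coe]) (congrArg Subtype.val c) (by rwa [orderOf_coe]) m e,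
    fun s hs m => h.n8 s (by rwa [orderOf_coe]) m⟩
  norm h _ hσ _ := h.fp _ hσ _ (nfix (pow_orderOf_eq_one _) _)
  fix2 {X _ _ M _ _ _} h S hS K hK ne := by
    let A : SubMulAction S M := ⟨K, fun s m hm => hK s s.2 m hm⟩
    obtain ⟨⟨a, ha⟩, a0⟩ := (AddSubgroup.ne_bot_iff_exists_ne_zero).1 ne
    have : 2 ∣ Nat.card A := by
      rw [← addOrderOf_eq_prime (p := 2) (Subtype.ext ((two_nsmul a).trans (h.two a))) a0]
      exact addOrderOf_dvd_natCard (⟨a, ha⟩ : K)
    obtain ⟨b, hb, n⟩ := hS.exists_fixed_point_of_prime_dvd_card_of_fixed_point A this (a := ⟨0, K.zero_mem⟩)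
      fun s => Subtype.ext (smul_zero s)
    exact ⟨b, b.2, fun e => n (Subtype.ext e.symm), fun s hs => congrArg Subtype.val (hb ⟨s, hs⟩)⟩
  orb ω m tr st := by
    choose c hc using tr
    refine ⟨fun ω' => c ω' • m, st _ (hc ω), fun g ω' => ?_⟩
    rw [← inv_smul_eq_iff, smul_smul, smul_smul]
    exact st _ (by rw [mul_smul, mul_smul, hc, inv_smul_eq_iff, hc])
  free h _ _ := free h
  fi {_ _ M _ _ _} h t σ x ht hσ e hx c m hm := by
    have o : ∃ n, orderOf t = 2 ^ n := ⟨1, ht⟩
    obtain ⟨a, ha⟩ := free h (by rw [← sq, ← ht, pow_orderOf_eq_one]) e (h.fp _ (by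
      rwa [← sq, Nat.Coprime.orderOf_pow (by rcases hσ with k | k <;> rw [k] <;> norm_num)])) m (h.k t x hx c o m hm)
    have k := h.k t x hx c o _ (efix (o3 hx) a)
    have c' : ∀ m : M, t • x • m = x • t • m := fun m => by rw [smul_smul, c, mul_smul]
    have h1 := congrArg (x • ·) ha
    have h2 := congrArg (x • ·) h1
    simp only [hm, smul_add, c'] at h1 h2 k
    linear_combination (norm := abel1) ha + h1 + h2 + k - h.two m + h.two (a + x • a + x • x • a)
  bp h s x y hx hs c d y3 e m hm := by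
    have c1 : Commute s x := c
    have c2 : Commute y x := d
    have k := h.k _ x hx ((c2.mul_left c1).mul_left c2.inv_left) (by
      rwa [← (SemiconjBy.conj_mk y s).orderOf_eq]) m hm
    have k' := h.k s⁻¹ x hx c1.inv_left (by rwa [orderOf_inv]) m hm
    have : (y * y) • m = m := by
      rw [show y * y = y * s * y⁻¹ * s⁻¹ by rw [mul_assoc y, mul_assoc y, ← conj_inv, e, inv_inv], mul_smul, k', k]
    rw [← this, smul_smul, ← pow_three, y3, one_smul, this]
  dec9 {_ _ M _ _} h a b e m := by
    obtain ⟨ha, hb, c, -⟩ := e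
    have a3 := o3 (M := M) ha
    have b3 := o3 (M := M) hb
    have c' : ∀ m : M, b • a • m = a • b • m := fun m => by rw [smul_smul, ← c, mul_smul]
    have i : ∀ m : M, b⁻¹ • m = b • b • m := fun m => by rw [inv_smul_eq_iff, b3]
    refine ⟨_, _, _, _, ?_, efix a3 (b • m + b • b • m), efix b3 m, efix (fun m => ?_) m, efix (fun m => ?_) m⟩ <;>
      simp only [mul_smul, i, smul_add, c', a3, b3]
    linear_combination (norm := abel1) -h.two (m + b • m + b • b • m + a • b • m + a • b • b • m +
      a • a • b • m + a • a • b • b • m)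

end Cfsg.Lib.P8
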